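/-
A nontrivial word has a non-central value in SL2 of any large finite field.
-/
import Mathlib

set_option autoImplicit false

namespace Cfsg.Lib.Words

open Polynomial Matrix

/-- `w` has a value in `G` which is not central -/
def NC (w : FreeGroup ℕ) (G : Type*) [Group G] : Prop :=
  ∃ (f : ℕ → G) (g : G), ¬ Commute (FreeGroup.lift f w) g

theorem NC.map {w : FreeGroup ℕ} {H G : Type*} [Group H] [Group G] (h : NC w H) (φ : H →* G)
    (hφ : Function.Injective φ) : NC w G := by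
  obtain ⟨f, g, hg⟩ := h
  refine ⟨φ ∘ f, φ g, fun hc => hg (hφ ?_)⟩
  have e : FreeGroup.lift (φ ∘ f) w = φ (FreeGroup.lift f w) := by
    rw [← MonoidHom.comp_apply]
    congr 1
    exact FreeGroup.ext_hom _ _ fun i => by simp
  rw [map_mul, map_mul, ← e]
  exact hc

theorem NC.ne_one {w : FreeGroup ℕ} {G : Type*} [Group G] (h : NC w G) :
    ∃ f : ℕ → G, FreeGroup.lift f w ≠ 1 := by
  obtain ⟨f, g, hg⟩ := h
  exact ⟨f, fun e => hg (e ▸ Commute.one_left g)⟩

theorem NC.quot_center {w : FreeGroup ℕ} {G : Type*} [Group G] (h : NC w G) :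
    ∃ f : ℕ → G ⧸ Subgroup.center G, FreeGroup.lift f w ≠ 1 := by
  obtain ⟨f, g, hg⟩ := h
  refine ⟨QuotientGroup.mk' _ ∘ f, fun e => hg ?_⟩
  have e' : FreeGroup.lift (QuotientGroup.mk' (Subgroup.center G) ∘ f) w =
      QuotientGroup.mk' (Subgroup.center G) (FreeGroup.lift f w) := by
    rw [← MonoidHom.comp_apply]
    congr 1
    exact FreeGroup.ext_hom _ _ fun i => by simp
  rw [e', QuotientGroup.mk'_apply, QuotientGroup.eq_one_iff] at e
  exact (Subgroup.mem_center_iff.1 e g).symm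

section Poly

variable {F : Type*} [Field F]

/-- the generators of the ping-pong -/
noncomputable def pp (k : ℕ) : Matrix.SpecialLinearGroup (Fin 2) F[X] :=
  ⟨!![1 + X ^ k * X ^ k, X ^ k; X ^ k, 1], by simp [Matrix.det_fin_two_of]⟩

/-- the state of a vector that has just been moved by a letter -/
def St (l : ℕ × Bool) (v : Fin 2 → F[X]) : Prop :=
  v 0 ≠ 0 ∧ v 1 ≠ 0 ∧
    if l.2 then (v 0).natDegree = (v 1).natDegree + (l.1 + 1)
    else (v 1).natDegree = (v 0).natDegree + (l.1 + 1)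

theorem coe_pp_inv (k : ℕ) :
    (((pp k)⁻¹ : Matrix.SpecialLinearGroup (Fin 2) F[X]) : Matrix (Fin 2) (Fin 2) F[X]) =
      !![1, -X ^ k; -X ^ k, 1 + X ^ k * X ^ k] := by
  rw [Matrix.SpecialLinearGroup.coe_inv, pp, Matrix.adjugate_fin_two_of]

theorem natDegree_lead {a b : F[X]} {m n : ℕ} (ha : a ≠ 0) (hm : a.natDegree = m) (hn : b.natDegree ≤ n)
    (hlt : n < m) : a + b ≠ 0 ∧ (a + b).natDegree = m := by
  have h : (a + b).natDegree = m := by
    rw [natDegree_add_eq_left_of_natDegree_lt (by omega), hm]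
  exact ⟨fun e => by rw [e, natDegree_zero] at h; omega, h⟩

theorem natDegree_Xpow_mul (k : ℕ) {p : F[X]} (hp : p ≠ 0) : (X ^ k * p).natDegree = k + p.natDegree := by
  rw [natDegree_mul (pow_ne_zero _ X_ne_zero) hp, natDegree_X_pow]

/-- the combination `(1 + X^2k) p + X^k q, X^k p + q` -/
theorem step_aux (k : ℕ) (hk : 1 ≤ k) {p q : F[X]} (hp : p ≠ 0) (hq : q ≠ 0)
    (h : q.natDegree ≠ p.natDegree + k) :
    ((1 + X ^ k * X ^ k) * p + X ^ k * q ≠ 0 ∧ X ^ k * p + q ≠ 0) ∧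
    ((1 + X ^ k * X ^ k) * p + X ^ k * q).natDegree = (X ^ k * p + q).natDegree + k ∧
    ((1 + X ^ k * X ^ k) * p + X ^ k * q).natDegree ≤ max p.natDegree q.natDegree + 2 * k := by
  have e : (1 + X ^ k * X ^ k) * p + X ^ k * q = X ^ k * (X ^ k * p + q) + p := by ring
  have hp' := natDegree_Xpow_mul k hp
  have hs : X ^ k * p + q ≠ 0 ∧ p.natDegree < (X ^ k * p + q).natDegree + k ∧
      (X ^ k * p + q).natDegree ≤ max p.natDegree q.natDegree + k := by
    rcases lt_or_gt_of_ne h with h | h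
    · obtain ⟨h1, h2⟩ := natDegree_lead (b := q) (mul_ne_zero (pow_ne_zero _ X_ne_zero) hp) hp' le_rfl (by omega)
      exact ⟨h1, by omega, by omega⟩
    · obtain ⟨h1, h2⟩ := natDegree_lead (a := q) (b := X ^ k * p) hq rfl hp'.le (by omega)
      rw [add_comm q] at h1 h2
      exact ⟨h1, by omega, by omega⟩
  obtain ⟨h1, h2, h3⟩ := hs
  obtain ⟨h4, h5⟩ := natDegree_lead (b := p) (mul_ne_zero (pow_ne_zero _ X_ne_zero) h1)
    (natDegree_Xpow_mul k h1) le_rfl (by omega)
  rw [e]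
  exact ⟨⟨h4, h1⟩, by omega, by omega⟩

/-- one step of the ping-pong -/
theorem step (l : ℕ × Bool) (v : Fin 2 → F[X]) (hv0 : v 0 ≠ 0) (hv1 : v 1 ≠ 0)
    (hbad : if l.2 then (v 1).natDegree ≠ (v 0).natDegree + (l.1 + 1)
      else (v 0).natDegree ≠ (v 1).natDegree + (l.1 + 1)) :
    let M : Matrix (Fin 2) (Fin 2) F[X] :=
      ((cond l.2 (pp (l.1 + 1)) (pp (l.1 + 1))⁻¹ : Matrix.SpecialLinearGroup (Fin 2) F[X]) :
        Matrix (Fin 2) (Fin 2) F[X])
    St l (M *ᵥ v) ∧ max ((M *ᵥ v) 0).natDegree ((M *ᵥ v) 1).natDegree ≤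
      max (v 0).natDegree (v 1).natDegree + 2 * (l.1 + 1) := by
  obtain ⟨i, b⟩ := l
  intro M
  cases b
  · have hM : M = !![1, -X ^ (i + 1); -X ^ (i + 1), 1 + X ^ (i + 1) * X ^ (i + 1)] := coe_pp_inv (i + 1)
    simp only [Bool.false_eq_true, if_false] at hbad
    obtain ⟨⟨h1, h2⟩, h3, h4⟩ := step_aux (i + 1) (by omega) (p := v 1) (q := -v 0) hv1 (neg_ne_zero.2 hv0)
      (by rwa [natDegree_neg])
    rw [natDegree_neg] at h4
    have e0 : (M *ᵥ v) 0 = -(X ^ (i + 1) * v 1 + -v 0) := by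
      simp [hM, Matrix.mulVec, dotProduct, Fin.sum_univ_two] <;> ring
    have e1 : (M *ᵥ v) 1 = (1 + X ^ (i + 1) * X ^ (i + 1)) * v 1 + X ^ (i + 1) * -v 0 := by
      simp [hM, Matrix.mulVec, dotProduct, Fin.sum_univ_two] <;> ring
    simp only [St, Bool.false_eq_true, if_false]
    rw [e0, e1, natDegree_neg]
    exact ⟨⟨neg_ne_zero.2 h2, h1, h3⟩, by rw [max_comm (v 0).natDegree]; omega⟩
  · have hM : M = !![1 + X ^ (i + 1) * X ^ (i + 1), X ^ (i + 1); X ^ (i + 1), 1] := rfl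
    simp only [if_true] at hbad
    obtain ⟨⟨h1, h2⟩, h3, h4⟩ := step_aux (i + 1) (by omega) hv0 hv1 hbad
    have e0 : (M *ᵥ v) 0 = (1 + X ^ (i + 1) * X ^ (i + 1)) * v 0 + X ^ (i + 1) * v 1 := by
      simp [hM, Matrix.mulVec, dotProduct, Fin.sum_univ_two]
    have e1 : (M *ᵥ v) 1 = X ^ (i + 1) * v 0 + v 1 := by
      simp [hM, Matrix.mulVec, dotProduct, Fin.sum_univ_two]
    simp only [St, if_true]
    rw [e0, e1]
    exact ⟨⟨h1, h2, h3⟩, by omega⟩

/-- the image of the base vector under a word -/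
noncomputable def orbitVec (L : List (ℕ × Bool)) : Fin 2 → F[X] :=
  ((L.map fun l => (cond l.2 (pp (l.1 + 1)) (pp (l.1 + 1))⁻¹ : Matrix.SpecialLinearGroup (Fin 2) F[X])).prod :
    Matrix (Fin 2) (Fin 2) F[X]) *ᵥ ![1, 1]

/-- the degree bound of a word -/
def wBound (L : List (ℕ × Bool)) : ℕ := (L.map fun l => 2 * (l.1 + 1)).sum

theorem orbit_spec : ∀ L : List (ℕ × Bool), FreeGroup.IsReduced L → ∀ a M, L = a :: M →
    St a (orbitVec (F := F) L) ∧
      max (orbitVec (F := F) L 0).natDegree (orbitVec (F := F) L 1).natDegree ≤ wBound L := by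
  intro L
  induction L with
  | nil => intro _ a M e; exact absurd e.symm (List.cons_ne_nil _ _)
  | cons l T ih =>
    intro hred a M e
    obtain ⟨rfl, -⟩ := List.cons_eq_cons.1 e
    have hv : orbitVec (F := F) (l :: T) =
        ((cond l.2 (pp (l.1 + 1)) (pp (l.1 + 1))⁻¹ : Matrix.SpecialLinearGroup (Fin 2) F[X]) :
          Matrix (Fin 2) (Fin 2) F[X]) *ᵥ orbitVec T := by
      rw [orbitVec, List.map_cons, List.prod_cons, Matrix.SpecialLinearGroup.coe_mul, ← Matrix.mulVec_mulVec]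
      rfl
    rcases T with _ | ⟨c, T⟩
    · have hbase : orbitVec (F := F) ([] : List (ℕ × Bool)) = ![1, 1] := by simp [orbitVec]
      rw [hv, hbase]
      obtain ⟨h1, h2⟩ := step (F := F) l ![1, 1] (by simp) (by simp) (by simp)
      refine ⟨h1, h2.trans ?_⟩
      simp [wBound]
    · rw [FreeGroup.isReduced_cons_cons] at hred
      obtain ⟨⟨h0, h1, h2⟩, h3⟩ := ih hred.2 c T rfl
      rw [hv]
      obtain ⟨g1, g2⟩ := step l (orbitVec (c :: T)) h0 h1 (by
        rcases l with ⟨i, b⟩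
        rcases c with ⟨j, b'⟩
        have hr := hred.1
        simp only at hr h2 ⊢
        cases b <;> cases b' <;> simp_all <;> omega)
      refine ⟨g1, g2.trans ?_⟩
      simp only [wBound, List.map_cons, List.sum_cons] at h3 ⊢
      omega

end Poly

/-- a nontrivial word has a non-central value in `SL2` of a large enough field -/
theorem sl2_word {w : FreeGroup ℕ} (hw : w ≠ 1) : ∃ N : ℕ, ∀ (F : Type) [Field F] [Fintype F],
    N ≤ Fintype.card F → NC w (Matrix.SpecialLinearGroup (Fin 2) F) := by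
  refine ⟨wBound w.toWord + 1, fun F _ _ hF => ?_⟩
  obtain ⟨a, M, hL⟩ : ∃ a M, w.toWord = a :: M := by
    rcases h : w.toWord with _ | ⟨a, M⟩
    · exact absurd (FreeGroup.toWord_eq_nil_iff.1 h) hw
    · exact ⟨a, M, rfl⟩
  obtain ⟨⟨h0, h1, hst⟩, hbd⟩ := orbit_spec (F := F) w.toWord FreeGroup.isReduced_toWord a M hL
  set P := orbitVec (F := F) w.toWord 0 with hP
  set Q := orbitVec (F := F) w.toWord 1 with hQ
  have hne : P - Q ≠ 0 := fun e => by
    rw [sub_eq_zero] at e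
    rw [e] at hst
    split at hst <;> omega
  obtain ⟨x, hx⟩ : ∃ x : F, (P - Q).eval x ≠ 0 := by
    by_contra hc
    push Not at hc
    refine hne (Polynomial.eq_zero_of_natDegree_lt_card_of_eval_eq_zero _ (ι := F) Function.injective_id
      (fun x => hc x) ?_)
    have := natDegree_sub_le P Q
    omega
  let φ : Matrix.SpecialLinearGroup (Fin 2) F[X] →* Matrix.SpecialLinearGroup (Fin 2) F :=
    Matrix.SpecialLinearGroup.map (Polynomial.evalRingHom x)
  let f : ℕ → Matrix.SpecialLinearGroup (Fin 2) F := fun i => φ (pp (i + 1))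
  set m := FreeGroup.lift f w with hm
  have hm' : m = φ ((w.toWord.map fun l =>
      (cond l.2 (pp (l.1 + 1)) (pp (l.1 + 1))⁻¹ : Matrix.SpecialLinearGroup (Fin 2) F[X])).prod) := by
    rw [hm]
    conv_lhs => rw [← FreeGroup.mk_toWord (x := w)]
    rw [FreeGroup.lift_mk, map_list_prod, List.map_map]
    congr 1
    refine List.map_congr_left fun l _ => ?_
    rcases l with ⟨i, b⟩
    cases b <;> simp [f]
  have hv : ∀ i, ((m : Matrix (Fin 2) (Fin 2) F) i 0 + (m : Matrix (Fin 2) (Fin 2) F) i 1) =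
      (orbitVec (F := F) w.toWord i).eval x := by
    intro i
    rw [hm']
    simp [φ, orbitVec, Matrix.mulVec, dotProduct, Fin.sum_univ_two]
  by_contra hcen
  have hc : ∀ g, Commute m g := fun g => by
    by_contra hg
    exact hcen ⟨f, g, hg⟩
  have u : (m : Matrix (Fin 2) (Fin 2) F) * !![1, 1; 0, 1] = !![1, 1; 0, 1] * (m : Matrix (Fin 2) (Fin 2) F) := by
    have h := hc ⟨!![1, 1; 0, 1], by simp [Matrix.det_fin_two_of]⟩
    exact congrArg Subtype.val h.eq
  have l : (m : Matrix (Fin 2) (Fin 2) F) * !![1, 0; 1, 1] = !![1, 0; 1, 1] * (m : Matrix (Fin 2) (Fin 2) F) := by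
    have h := hc ⟨!![1, 0; 1, 1], by simp [Matrix.det_fin_two_of]⟩
    exact congrArg Subtype.val h.eq
  have u0 := congrFun (congrFun u 0) 0
  have u1 := congrFun (congrFun u 0) 1
  have l0 := congrFun (congrFun l 0) 0
  simp [Matrix.mul_apply, Fin.sum_univ_two] at u0 u1 l0
  refine hx ?_
  rw [Polynomial.eval_sub, hP, hQ, ← hv 0, ← hv 1]
  linear_combination u1 + l0 - u0

end Cfsg.Lib.Words
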