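/-
Non-central values of words in the classical groups of large rank or large field.
-/
import Cfsg.Agent.Lib.Words.PingPong
import Cfsg.Agent.Lib.Classical.SLGroup
import Cfsg.Prelude.Def_Classical

set_option autoImplicit false

namespace Cfsg.Lib.Words

open Matrix

variable {ι κ μ : Type} [Fintype ι] [DecidableEq ι] [Fintype κ] [DecidableEq κ] [Fintype μ] [DecidableEq μ]

/-- even permutations along an embedding -/
noncomputable def altExtend (e : ι ↪ κ) : alternatingGroup ι →* alternatingGroup κ :=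
  ((Equiv.Perm.viaEmbeddingHom e).comp (alternatingGroup ι).subtype).codRestrict _ fun σ => by
    classical
    rw [Equiv.Perm.mem_alternatingGroup]
    show Equiv.Perm.sign (Equiv.Perm.viaEmbedding (σ : Equiv.Perm ι) e) = 1
    rw [Equiv.Perm.viaEmbedding, Equiv.Perm.sign_extendDomain]
    exact σ.2

theorem altExtend_injective (e : ι ↪ κ) : Function.Injective (altExtend e) :=
  fun a b h => Subtype.ext (Equiv.Perm.viaEmbeddingHom_injective e (congrArg Subtype.val h))

/-- the doubled regular action -/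
noncomputable def dblHom (H : Type) [Group H] [Fintype H] [DecidableEq H] : H →* alternatingGroup (H ⊕ H) :=
  ((Equiv.Perm.sumCongrHom H H).comp ((MulAction.toPermHom H H).prod (MulAction.toPermHom H H))).codRestrict _
    fun h => by
      rw [Equiv.Perm.mem_alternatingGroup]
      show Equiv.Perm.sign (Equiv.sumCongr (MulAction.toPermHom H H h) (MulAction.toPermHom H H h)) = 1
      rw [Equiv.Perm.sign_sumCongr, Int.units_mul_self]

theorem dblHom_injective (H : Type) [Group H] [Fintype H] [DecidableEq H] : Function.Injective (dblHom H) := by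
  intro a b h
  have h' : Equiv.sumCongr (MulAction.toPerm a : Equiv.Perm H) (MulAction.toPerm a) =
      Equiv.sumCongr (MulAction.toPerm b : Equiv.Perm H) (MulAction.toPerm b) := congrArg Subtype.val h
  simpa using Equiv.congr_fun h' (Sum.inl 1)

theorem nc_alternating {w : FreeGroup ℕ} (hw : w ≠ 1) :
    ∃ d, 5 ≤ d ∧ ∀ n, d ≤ n → NC w (alternatingGroup (Fin n)) := by
  classical
  obtain ⟨N, hN⟩ := sl2_word hw
  obtain ⟨p, hp, hpp⟩ := Nat.exists_infinite_primes N
  haveI : Fact p.Prime := ⟨hpp⟩
  have h := hN (ZMod p) (by rwa [ZMod.card])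
  set H := Matrix.SpecialLinearGroup (Fin 2) (ZMod p)
  refine ⟨max 5 (Fintype.card (H ⊕ H)), le_max_left _ _, fun n hn => ?_⟩
  obtain ⟨e⟩ : Nonempty (H ⊕ H ↪ Fin n) := Function.Embedding.nonempty_of_card_le (by
    rw [Fintype.card_fin]; exact le_trans (le_max_right _ _) hn)
  exact (h.map (dblHom H) (dblHom_injective H)).map (altExtend e) (altExtend_injective e)

/-- even permutation matrices -/
noncomputable def altSL (n : ℕ) (F : Type) [Field F] :
    alternatingGroup (Fin n) →* Matrix.SpecialLinearGroup (Fin n) F where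
  toFun σ := ⟨Matrix.permMatrixHom (n := Fin n) (R := F) (σ : Equiv.Perm (Fin n)), by
    show Matrix.det (((σ : Equiv.Perm (Fin n))⁻¹).permMatrix F) = 1
    rw [Matrix.det_permutation, Equiv.Perm.sign_inv, Equiv.Perm.mem_alternatingGroup.1 σ.2]
    simp⟩
  map_one' := Subtype.ext (map_one _)
  map_mul' σ τ := Subtype.ext (map_mul (Matrix.permMatrixHom (n := Fin n) (R := F)) _ _)

theorem permMatrix_injective' {n : ℕ} {F : Type} [Field F] {σ τ : Equiv.Perm (Fin n)}
    (h : σ.permMatrix F = τ.permMatrix F) : σ = τ := by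
  refine Equiv.ext fun i => ?_
  have := congrArg (fun M => M i (τ i)) h
  by_contra hne
  simp [Equiv.Perm.permMatrix, PEquiv.toMatrix_apply, hne] at this

theorem altSL_injective (n : ℕ) (F : Type) [Field F] : Function.Injective (altSL n F) := fun σ τ h =>
  Subtype.ext (inv_injective (permMatrix_injective' (congrArg Subtype.val h)))

/-- a block with the identity -/
noncomputable def blockSL {F : Type} [Field F] (e : ι ≃ κ ⊕ μ) :
    Matrix.SpecialLinearGroup κ F →* Matrix.SpecialLinearGroup ι F where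
  toFun g := ⟨(fromBlocks (g : Matrix κ κ F) 0 0 1).submatrix e e, by
    rw [Matrix.det_submatrix_equiv_self, Matrix.det_fromBlocks_zero₂₁]; simp⟩
  map_one' := Subtype.ext (by simp [fromBlocks_one])
  map_mul' g h := Subtype.ext (by
    show _ = (fromBlocks (g : Matrix κ κ F) 0 0 (1 : Matrix μ μ F)).submatrix e e *
      (fromBlocks (h : Matrix κ κ F) 0 0 (1 : Matrix μ μ F)).submatrix e e
    rw [Matrix.submatrix_mul_equiv, Matrix.fromBlocks_multiply]
    simp)

theorem blockSL_injective {F : Type} [Field F] (e : ι ≃ κ ⊕ μ) :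
    Function.Injective (blockSL (F := F) e) := fun g h hgh => Subtype.ext (by
  ext i j
  have := congrArg (fun M => M (e.symm (Sum.inl i)) (e.symm (Sum.inl j))) (congrArg Subtype.val hgh)
  change (fromBlocks (g : Matrix κ κ F) 0 0 (1 : Matrix μ μ F)).submatrix e e _ _ =
    (fromBlocks (h : Matrix κ κ F) 0 0 (1 : Matrix μ μ F)).submatrix e e _ _ at this
  simpa using this)

/-- the special linear groups have non-central values -/
theorem nc_SL {w : FreeGroup ℕ} {N d m : ℕ} {F : Type} [Field F] [Fintype F]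
    (hd : ∀ n, d ≤ n → NC w (alternatingGroup (Fin n)))
    (hN : N ≤ Fintype.card F → NC w (Matrix.SpecialLinearGroup (Fin 2) F)) (hm : 2 ≤ m)
    (h : d ≤ m ∨ N ≤ Fintype.card F) : NC w (Matrix.SpecialLinearGroup (Fin m) F) := by
  rcases h with h | h
  · exact (hd m h).map (altSL m F) (altSL_injective m F)
  · exact (hN h).map (blockSL ((finCongr (show m = 2 + (m - 2) by omega)).trans finSumFinEquiv.symm))
      (blockSL_injective _)

/-- `g` and its inverse transpose -/
noncomputable def duo (F : Type) [Field F] : Matrix.SpecialLinearGroup ι F →* Matrix (ι ⊕ ι) (ι ⊕ ι) F where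
  toFun g := fromBlocks (g : Matrix ι ι F) 0 0 ((g⁻¹ : Matrix.SpecialLinearGroup ι F) : Matrix ι ι F)ᵀ
  map_one' := by simp [fromBlocks_one]
  map_mul' g h := by simp [fromBlocks_multiply, _root_.mul_inv_rev, Matrix.transpose_mul]

theorem duo_injective (F : Type) [Field F] : Function.Injective (duo (ι := ι) F) := fun g h e =>
  Subtype.ext (by
    ext i j
    exact congrArg (fun M => M (Sum.inl i) (Sum.inl j)) e)

theorem duo_form (F : Type) [Field F] (g : Matrix.SpecialLinearGroup ι F) (v : ι ⊕ ι → F) :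
    ∑ i, (duo F g *ᵥ v) (Sum.inl i) * (duo F g *ᵥ v) (Sum.inr i) = ∑ i, v (Sum.inl i) * v (Sum.inr i) := by
  simp only [duo, MonoidHom.coe_mk, OneHom.coe_mk, fromBlocks_mulVec, Sum.elim_inl, Sum.elim_inr, Matrix.zero_mulVec,
    add_zero, zero_add]
  show dotProduct _ _ = dotProduct (v ∘ Sum.inl) (v ∘ Sum.inr)
  rw [Matrix.dotProduct_mulVec, Matrix.vecMul_transpose, Matrix.mulVec_mulVec,
    ← Matrix.SpecialLinearGroup.coe_mul, inv_mul_cancel, Matrix.SpecialLinearGroup.coe_one, Matrix.one_mulVec]

/-- the symplectic embedding -/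
noncomputable def spHom (F : Type) [Field F] : Matrix.SpecialLinearGroup ι F →* Matrix.symplecticGroup ι F :=
  (duo F).codRestrict _ fun g => by
    rw [SymplecticGroup.mem_iff]
    simp [duo, Matrix.J, fromBlocks_transpose, fromBlocks_multiply, ← Matrix.transpose_mul,
      Matrix.mul_adjugate]

theorem spHom_injective (F : Type) [Field F] : Function.Injective (spHom (ι := ι) F) := fun g h e =>
  duo_injective F (congrArg Subtype.val e)

theorem nc_preserving {w : FreeGroup ℕ} {F : Type} [Field F] {G : Type} [Group G] [hG : Group.IsPerfect G]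
    (Q : (ι → F) → F) (φ : G →* Matrix ι ι F) (hφ : Function.Injective φ) (hQ : ∀ g v, Q (φ g *ᵥ v) = Q v)
    (h : NC w G) : NC w (Cfsg.Omega F Q) := by
  let ψ : G →* Cfsg.isometryGroup F Q := φ.toHomUnits.codRestrict _ fun g u _ => hQ g u
  have hψ : Function.Injective ψ := fun a b e => hφ
    (congrArg (fun x : Cfsg.isometryGroup F Q => ((x : GL ι F) : Matrix ι ι F)) e :)
  have hle : ∀ g, ψ g ∈ Cfsg.Omega F Q := fun g => by
    have h1 : g ∈ commutator G := by rw [hG.commutator_eq_top]; trivial
    exact Subgroup.commutator_mono le_top le_top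
      (Subgroup.map_commutator (⊤ : Subgroup G) ⊤ ψ ▸ Subgroup.mem_map_of_mem ψ h1)
  exact h.map (ψ.codRestrict _ hle) (fun a b e => hψ (congrArg Subtype.val e))

theorem perfect_SL (F : Type) [Field F] {m : ℕ} (hm : 3 ≤ m) :
    Group.IsPerfect (Matrix.SpecialLinearGroup (Fin m) F) :=
  ⟨Cfsg.Lib.Classical.SLGroup.commutator_sl_eq_top (Or.inl (by simpa using hm))⟩

theorem nc_omega_plus {w : FreeGroup ℕ} {F : Type} [Field F] {m : ℕ} (hm : 3 ≤ m)
    (h : NC w (Matrix.SpecialLinearGroup (Fin m) F)) : NC w (Cfsg.Omega F (Cfsg.quadFormPlus m F)) := by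
  haveI := perfect_SL F hm
  exact nc_preserving _ (duo F) (duo_injective F) (duo_form F) h

theorem nc_omega_odd {w : FreeGroup ℕ} {F : Type} [Field F] {m : ℕ} (hm : 3 ≤ m)
    (h : NC w (Matrix.SpecialLinearGroup (Fin m) F)) : NC w (Cfsg.Omega F (Cfsg.quadFormOdd m F)) := by
  haveI := perfect_SL F hm
  let φ : Matrix.SpecialLinearGroup (Fin m) F →* Matrix (Unit ⊕ (Fin m ⊕ Fin m)) (Unit ⊕ (Fin m ⊕ Fin m)) F :=
    { toFun := fun g => fromBlocks 1 0 0 (duo F g)
      map_one' := by simp [fromBlocks_one]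
      map_mul' := fun a b => by simp [fromBlocks_multiply] }
  refine nc_preserving _ φ (fun a b e => duo_injective F ?_) (fun g v => ?_) h
  · ext i j
    exact congrArg (fun M => M (Sum.inr i) (Sum.inr j)) e
  · have := duo_form F g (v ∘ Sum.inr)
    simp only [Cfsg.quadFormOdd, φ, MonoidHom.coe_mk, OneHom.coe_mk, fromBlocks_mulVec, Sum.elim_inl, Sum.elim_inr,
      Matrix.one_mulVec, Matrix.zero_mulVec, add_zero, zero_add, Function.comp_apply] at this ⊢
    rw [this]

theorem nc_omega_minus {w : FreeGroup ℕ} {F : Type} [Field F] {m : ℕ} (hm : 3 ≤ m) (a b : F)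
    (h : NC w (Matrix.SpecialLinearGroup (Fin m) F)) : NC w (Cfsg.Omega F (Cfsg.quadFormMinus m F a b)) := by
  haveI := perfect_SL F hm
  let φ : Matrix.SpecialLinearGroup (Fin m) F →* Matrix ((Fin m ⊕ Fin m) ⊕ Fin 2) ((Fin m ⊕ Fin m) ⊕ Fin 2) F :=
    { toFun := fun g => fromBlocks (duo F g) 0 0 1
      map_one' := by simp [fromBlocks_one]
      map_mul' := fun a b => by simp [fromBlocks_multiply] }
  refine nc_preserving _ φ (fun a b e => duo_injective F ?_) (fun g v => ?_) h
  · ext i j
    exact congrArg (fun M => M (Sum.inl i) (Sum.inl j)) e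
  · have := duo_form F g (v ∘ Sum.inl)
    simp only [Cfsg.quadFormMinus, φ, MonoidHom.coe_mk, OneHom.coe_mk, fromBlocks_mulVec, Sum.elim_inl, Sum.elim_inr,
      Matrix.one_mulVec, Matrix.zero_mulVec, add_zero, zero_add, Function.comp_apply] at this ⊢
    rw [this]

end Cfsg.Lib.Words
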