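/-
Non-central values of words in special unitary groups.
-/
import Cfsg.Agent.Lib.Words.Embed

set_option autoImplicit false

namespace Cfsg.Lib.Words

open Matrix

variable {F : Type} [Field F] [Fintype F]

theorem exists_pow_of_pow_eq_one {a b : ℕ} (hab : Nat.card Fˣ = a * b) (y : Fˣ) (hy : y ^ b = 1) :
    ∃ x : Fˣ, x ^ a = y := by
  obtain ⟨ζ, hζ⟩ := IsCyclic.exists_ofOrder_eq_natCard (α := Fˣ)
  obtain ⟨k, rfl⟩ : y ∈ Submonoid.powers ζ := by
    rw [mem_powers_iff_mem_zpowers]
    rw [Subgroup.eq_top_of_card_eq (Subgroup.zpowers ζ) (by rw [Nat.card_zpowers, hζ])]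
    trivial
  simp only at hy
  have hb : b ≠ 0 := by
    rintro rfl
    have : 0 < Nat.card Fˣ := Nat.card_pos
    omega
  rw [← pow_mul, ← orderOf_dvd_iff_pow_eq_one, hζ, hab] at hy
  obtain ⟨j, hj⟩ := (Nat.mul_dvd_mul_iff_right (Nat.pos_of_ne_zero hb)).1 hy
  exact ⟨ζ ^ j, by show _ = ζ ^ k; rw [← pow_mul, hj, mul_comm]⟩

theorem unitary_data {q : ℕ} (hF : Fintype.card F = q ^ 2) :
    ∃ (σ : F →+* F) (c d s δ : F), (∀ x, σ x = x ^ q) ∧ (∀ x, σ (σ x) = x) ∧ c * σ c = -1 ∧ d * σ d = -1 ∧ c ≠ d ∧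
      δ ≠ 0 ∧ σ δ = -δ ∧ σ s * (1 + c * σ d) = δ ∧ q ≤ Nat.card (σ.eqLocusField (RingHom.id F)) := by
  obtain ⟨p, hp⟩ := CharP.exists F
  obtain ⟨n, hpp, hn⟩ := FiniteField.card F p
  obtain ⟨f, -, rfl⟩ := (Nat.dvd_prime_pow hpp).1 (Dvd.intro q ((pow_two q).symm.trans (hF.symm.trans hn)))
  haveI : ExpChar F p := ExpChar.prime hpp
  set q := p ^ f with hq
  let σ : F →+* F := iterateFrobenius F p f
  have hσ : ∀ x, σ x = x ^ q := fun x => iterateFrobenius_def p f x
  have hq1 : 1 < q := by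
    have := Fintype.one_lt_card (α := F)
    rw [hF] at this
    by_contra h
    have : q ^ 2 ≤ 1 ^ 2 := Nat.pow_le_pow_left (by omega) 2
    omega
  have hσσ : ∀ x, σ (σ x) = x := fun x => by
    rw [hσ, hσ, ← pow_mul, ← pow_two, ← hF, FiniteField.pow_card]
  have hU : Nat.card Fˣ = (q + 1) * (q - 1) := by
    rw [Nat.card_units, Nat.card_eq_fintype_card, hF, ← Nat.sq_sub_sq, one_pow]
  have hneg : ∀ e, e = q + 1 ∨ e = q - 1 → ((-1 : Fˣ)) ^ e = 1 := by
    intro e he
    rcases Nat.even_or_odd q with hqe | hqo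
    · have h2 : (-1 : Fˣ) = 1 := Units.ext (by
        have := FiniteField.pow_card (-1 : F)
        rw [Even.neg_one_pow (hF ▸ hqe.pow_of_ne_zero two_ne_zero)] at this
        simpa using this.symm)
      rw [h2, one_pow]
    · refine Even.neg_one_pow ?_
      rcases he with rfl | rfl
      · exact hqo.add_one
      · exact Nat.Odd.sub_odd hqo odd_one
  obtain ⟨c, hc⟩ := exists_pow_of_pow_eq_one hU (-1) (hneg _ (Or.inr rfl))
  obtain ⟨δ, hδ⟩ := exists_pow_of_pow_eq_one (hU.trans (mul_comm _ _)) (-1) (hneg _ (Or.inl rfl))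
  obtain ⟨ζ, hζ⟩ := IsCyclic.exists_ofOrder_eq_natCard (α := Fˣ)
  rw [hU] at hζ
  have hd1 : ζ ^ (q - 1) ≠ 1 := fun h => by
    have h1 := Nat.le_of_dvd (by omega) (orderOf_dvd_of_pow_eq_one h)
    rw [hζ] at h1
    have h2 : 2 * (q - 1) ≤ (q + 1) * (q - 1) := Nat.mul_le_mul_right _ (by omega)
    omega
  have hcd : (c * ζ ^ (q - 1)) ^ (q + 1) = -1 := by
    rw [mul_pow, hc, ← pow_mul, mul_comm (q - 1), ← hζ, pow_orderOf_eq_one, mul_one]
  have hnorm : ∀ x : Fˣ, x ^ (q + 1) = -1 → (x : F) * σ (x : F) = -1 := fun x h => by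
    rw [hσ, ← pow_succ', ← Units.val_pow_eq_pow_val, h]; simp
  set d := c * ζ ^ (q - 1) with hd
  have hne : (c : F) ≠ (d : F) := fun h => hd1 (by
    have := Units.ext h
    rwa [hd, left_eq_mul] at this)
  have hnz : 1 + (c : F) * σ (d : F) ≠ 0 := fun h => hne (by
    have e := hnorm d hcd
    have : ((c : F) - d) * σ (d : F) = 0 := by linear_combination h - e
    rcases mul_eq_zero.1 this with h' | h'
    · exact sub_eq_zero.1 h'
    · rw [h', mul_zero] at e; exact absurd e (by simp))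
  refine ⟨σ, c, d, σ ((δ : F) / (1 + (c : F) * σ (d : F))), δ, hσ, hσσ, hnorm c hc, hnorm d hcd, hne,
    Units.ne_zero δ, ?_, ?_, ?_⟩
  · rw [hσ, show q = (q - 1) + 1 by omega, pow_succ, ← Units.val_pow_eq_pow_val, hδ]; simp
  · rw [hσσ, div_mul_cancel₀ _ hnz]
  · have hfix : ∀ i, σ ((ζ ^ ((q + 1) * i) : Fˣ) : F) = ((ζ ^ ((q + 1) * i) : Fˣ) : F) := fun i => by
      rw [hσ, ← Units.val_pow_eq_pow_val, ← pow_mul]
      congr 1
      rw [show (q + 1) * i * q = (q + 1) * (q - 1) * i + (q + 1) * i by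
          rw [show (q + 1) * (q - 1) * i = (q + 1) * i * (q - 1) by ring, ← Nat.mul_succ,
            show (q - 1).succ = q by omega],
        pow_add, pow_mul, ← hζ, pow_orderOf_eq_one, one_pow, one_mul]
    let g : Option (Fin (q - 1)) → σ.eqLocusField (RingHom.id F) := fun o =>
      match o with
      | none => ⟨0, map_zero σ⟩
      | some i => ⟨((ζ ^ ((q + 1) * (i : ℕ)) : Fˣ) : F), hfix i⟩
    have hg : Function.Injective g := by
      rintro (_ | i) (_ | j) h
      · rfl
      · exact absurd (show (((ζ ^ ((q + 1) * (j : ℕ))) : Fˣ) : F) = 0 from (congrArg Subtype.val h).symm) (Units.ne_zero _)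
      · exact absurd (show (((ζ ^ ((q + 1) * (i : ℕ))) : Fˣ) : F) = 0 from congrArg Subtype.val h) (Units.ne_zero _)
      · have e : ζ ^ ((q + 1) * (i : ℕ)) = ζ ^ ((q + 1) * (j : ℕ)) := Units.ext (congrArg Subtype.val h)
        have hlt : ∀ k : Fin (q - 1), (q + 1) * (k : ℕ) < orderOf ζ := fun k => by
          rw [hζ]; exact Nat.mul_lt_mul_of_pos_left k.2 (by omega)
        have := pow_injOn_Iio_orderOf (hlt i) (hlt j) e
        exact congrArg some (Fin.ext (Nat.eq_of_mul_eq_mul_left (by omega) this))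
    have := Nat.card_le_card_of_injective g hg
    simp only [Nat.card_eq_fintype_card, Fintype.card_option, Fintype.card_fin] at this ⊢
    omega

/-- preserving the hermitian form -/
theorem mem_SU {n q : ℕ} (σ : F →+* F) (hσ : ∀ x, σ x = x ^ q) (g : Matrix.SpecialLinearGroup (Fin n) F)
    (h : (g : Matrix (Fin n) (Fin n) F)ᵀ * (g : Matrix (Fin n) (Fin n) F).map σ = 1) : g ∈ Cfsg.SU n F q := by
  intro u v
  have e : ∀ u v : Fin n → F, Cfsg.hermForm n F q u v = dotProduct u (σ ∘ v) := fun u v => by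
    simp [Cfsg.hermForm, dotProduct, hσ]
  show Cfsg.hermForm n F q ((g : Matrix (Fin n) (Fin n) F) *ᵥ u) ((g : Matrix (Fin n) (Fin n) F) *ᵥ v) = _
  rw [e, e]
  have e2 : σ ∘ ((g : Matrix (Fin n) (Fin n) F) *ᵥ v) =
      (g : Matrix (Fin n) (Fin n) F).map σ *ᵥ (σ ∘ v) := funext fun i => RingHom.map_mulVec σ _ v i
  rw [e2, ← Matrix.vecMul_transpose (g : Matrix (Fin n) (Fin n) F) u, Matrix.dotProduct_mulVec, Matrix.vecMul_vecMul, h, Matrix.vecMul_one]

theorem nc_SU {w : FreeGroup ℕ} {N d n q : ℕ} (hd : ∀ n, d ≤ n → NC w (alternatingGroup (Fin n)))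
    (hN : ∀ (L : Type) [Field L] [Fintype L], N ≤ Fintype.card L → NC w (Matrix.SpecialLinearGroup (Fin 2) L))
    (hF : Fintype.card F = q ^ 2) (hn : 2 ≤ n) (h : d ≤ n ∨ N ≤ q) : NC w (Cfsg.SU n F q) := by
  obtain ⟨σ, c, d', s, δ, hσ, hσσ, hc, hd', hcd, hδ, hσδ, hs, hq⟩ := unitary_data hF
  rcases h with h | h
  · refine (hd n h).map ((altSL n F).codRestrict _ fun τ => mem_SU σ hσ _ ?_)
      (fun a b e => altSL_injective n F (congrArg Subtype.val e))
    show (((τ : Equiv.Perm (Fin n))⁻¹).permMatrix F)ᵀ * (((τ : Equiv.Perm (Fin n))⁻¹).permMatrix F).map σ = 1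
    have e : (((τ : Equiv.Perm (Fin n))⁻¹).permMatrix F).map σ = ((τ : Equiv.Perm (Fin n))⁻¹).permMatrix F := by
      ext i j
      simp [Equiv.Perm.permMatrix, PEquiv.toMatrix_apply, apply_ite σ]
    rw [e, Matrix.transpose_permMatrix, ← Matrix.permMatrix_mul, mul_inv_cancel]
    simp
  · classical
    let F0 := σ.eqLocusField (RingHom.id F)
    have h0 := hN F0 (le_trans h (by rwa [Nat.card_eq_fintype_card] at hq))
    let P : Matrix (Fin 2) (Fin 2) F := !![1, s; c, s * d']
    have hdet : P.det ≠ 0 := by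
      rw [Matrix.det_fin_two_of]
      intro e
      have hs0 : s ≠ 0 := by
        rintro rfl
        rw [map_zero, zero_mul] at hs
        exact hδ hs.symm
      have : s * (d' - c) = 0 := by linear_combination e
      rcases mul_eq_zero.1 this with h' | h'
      exacts [hs0 h', hcd (sub_eq_zero.1 h').symm]
    have hP : Pᵀ * P.map σ = δ • !![0, 1; -1, 0] := by
      have h10 : s * (1 + d' * σ c) = -δ := by
        have := congrArg σ hs
        rw [map_mul, map_add, map_mul, map_one, hσσ, hσσ, hσδ] at this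
        rw [← this]; ring
      ext i j
      fin_cases i <;> fin_cases j <;>
        simp [P, Matrix.mul_apply, Fin.sum_univ_two, Matrix.transpose_apply]
      · linear_combination hc
      · linear_combination hs
      · linear_combination h10
      · linear_combination s * σ s * hd'
    let ι₂ := (finCongr (show n = 2 + (n - 2) by omega)).trans finSumFinEquiv.symm
    let u : GL (Fin 2) F := Matrix.GeneralLinearGroup.mkOfDetNeZero P hdet
    let conj : Matrix.SpecialLinearGroup (Fin 2) F0 →* Matrix.SpecialLinearGroup (Fin 2) F :=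
      { toFun := fun g => ⟨P * (g : Matrix (Fin 2) (Fin 2) F0).map F0.subtype * P⁻¹, by
          rw [Matrix.det_mul, Matrix.det_mul, Matrix.det_nonsing_inv, ← RingHom.mapMatrix_apply, ← RingHom.map_det,
            g.2, map_one, mul_one, Ring.inverse_eq_inv', mul_inv_cancel₀ hdet]⟩
        map_one' := Subtype.ext (by
          simp only [Matrix.SpecialLinearGroup.coe_one]
          rw [Matrix.map_one _ (map_zero _) (map_one _), mul_one, Matrix.mul_nonsing_inv _ (isUnit_iff_ne_zero.2 hdet)])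
        map_mul' := fun g g' => Subtype.ext (by
          show P * ((g : Matrix (Fin 2) (Fin 2) F0) * (g' : Matrix (Fin 2) (Fin 2) F0)).map F0.subtype * P⁻¹ =
            P * (g : Matrix (Fin 2) (Fin 2) F0).map F0.subtype * P⁻¹ *
              (P * (g' : Matrix (Fin 2) (Fin 2) F0).map F0.subtype * P⁻¹)
          rw [Matrix.map_mul]
          simp only [mul_assoc, Matrix.nonsing_inv_mul_cancel_left _ _ (isUnit_iff_ne_zero.2 hdet)]) }
    have hinj : Function.Injective conj := fun g g' e => by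
      have e' : P * (g : Matrix (Fin 2) (Fin 2) F0).map F0.subtype * P⁻¹ =
          P * (g' : Matrix (Fin 2) (Fin 2) F0).map F0.subtype * P⁻¹ := congrArg Subtype.val e
      have e'' := congrArg (fun M => P⁻¹ * M * P) e'
      simp only [mul_assoc, Matrix.nonsing_inv_mul _ (isUnit_iff_ne_zero.2 hdet), mul_one,
        Matrix.nonsing_inv_mul_cancel_left _ _ (isUnit_iff_ne_zero.2 hdet)] at e''
      exact Subtype.ext (Matrix.map_injective F0.subtype.injective e'')
    have hu : ∀ g, (conj g : Matrix (Fin 2) (Fin 2) F)ᵀ * (conj g : Matrix (Fin 2) (Fin 2) F).map σ = 1 := fun g => by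
      set G := (g : Matrix (Fin 2) (Fin 2) F0).map F0.subtype with hG
      show (P * G * P⁻¹)ᵀ * (P * G * P⁻¹).map σ = 1
      have hGσ : G.map σ = G := by
        ext i j; exact ((g : Matrix (Fin 2) (Fin 2) F0) i j).2
      have hGdet : G.det = 1 := by rw [hG, ← RingHom.mapMatrix_apply, ← RingHom.map_det, g.2, map_one]
      have hJ : Gᵀ * !![0, 1; -1, 0] * G = !![0, 1; -1, 0] := by
        rw [Matrix.det_fin_two] at hGdet
        ext i j
        fin_cases i <;> fin_cases j <;> simp [Matrix.mul_apply, Fin.sum_univ_two, Matrix.transpose_apply]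
        · ring
        · linear_combination hGdet
        · linear_combination -hGdet
        · ring
      have hinv : P⁻¹.map σ = (P.map σ)⁻¹ := by
        refine (Matrix.inv_eq_right_inv ?_).symm
        rw [← Matrix.map_mul, Matrix.mul_nonsing_inv _ (isUnit_iff_ne_zero.2 hdet),
          Matrix.map_one _ (map_zero _) (map_one _)]
      have hdσ : IsUnit (P.map σ).det := by
        rw [← RingHom.mapMatrix_apply, ← RingHom.map_det]; exact (isUnit_iff_ne_zero.2 hdet).map σ
      rw [Matrix.map_mul, Matrix.map_mul, hGσ, hinv, Matrix.transpose_mul, Matrix.transpose_mul,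
        Matrix.transpose_nonsing_inv]
      calc Pᵀ⁻¹ * (Gᵀ * Pᵀ) * (P.map σ * G * (P.map σ)⁻¹)
          = Pᵀ⁻¹ * (Gᵀ * (Pᵀ * P.map σ) * G) * (P.map σ)⁻¹ := by simp only [mul_assoc]
        _ = Pᵀ⁻¹ * (Pᵀ * P.map σ) * (P.map σ)⁻¹ := by
            rw [hP, Matrix.mul_smul, Matrix.smul_mul, hJ]
        _ = 1 := by
            rw [Matrix.nonsing_inv_mul_cancel_left _ _ (by rw [Matrix.det_transpose]; exact isUnit_iff_ne_zero.2 hdet),
              Matrix.mul_nonsing_inv _ hdσ]
    refine h0.map (((blockSL ι₂).comp conj).codRestrict _ fun g => mem_SU σ hσ _ ?_)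
      (fun a b e => hinj (blockSL_injective ι₂ (congrArg Subtype.val e)))
    show ((fromBlocks (conj g : Matrix (Fin 2) (Fin 2) F) 0 0 (1 : Matrix (Fin (n - 2)) (Fin (n - 2)) F)).submatrix ι₂ ι₂)ᵀ *
      ((fromBlocks (conj g : Matrix (Fin 2) (Fin 2) F) 0 0 (1 : Matrix (Fin (n - 2)) (Fin (n - 2)) F)).submatrix ι₂ ι₂).map σ = 1
    rw [Matrix.transpose_submatrix, ← Matrix.submatrix_map, Matrix.submatrix_mul_equiv, Matrix.fromBlocks_transpose,
      Matrix.fromBlocks_map, Matrix.fromBlocks_multiply]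
    simp [hu g, fromBlocks_one]

end Cfsg.Lib.Words
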