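/-
Only boundedly many alternating and classical groups satisfy a given law.
-/
import Cfsg.Agent.Lib.Words.Unitary

set_option autoImplicit false

namespace Cfsg.Lib.Words

open Matrix

universe u

theorem card_le_matrix {P : Type u} [Group P] {ι F : Type} [Fintype ι] [DecidableEq ι] [Field F] [Fintype F]
    (f : P → Matrix ι ι F) (hf : Function.Injective f) {B D : ℕ} (hB : Fintype.card F ≤ B) (hD : Fintype.card ι ≤ D) :
    Nat.card P ≤ B ^ (D * D) := by
  refine (Nat.card_le_card_of_injective f hf).trans ?_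
  have h1 : 1 ≤ B := le_trans Fintype.card_pos hB
  rw [Nat.card_eq_fintype_card]
  show Fintype.card (ι → ι → F) ≤ _
  rw [Fintype.card_fun, Fintype.card_fun, ← pow_mul]
  exact (Nat.pow_le_pow_left hB _).trans (Nat.pow_le_pow_right h1 (Nat.mul_le_mul hD hD))

theorem card_quot_le {P : Type u} [Group P] [Finite P] (Z : Subgroup P) : Nat.card (P ⧸ Z) ≤ Nat.card P :=
  Nat.card_le_card_of_surjective _ Quotient.mk_surjective

theorem law_push {w : FreeGroup ℕ} {G : Type u} [Group G] {H : Type} [Group H] (e : G ≃* H)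
    (h : ∀ f : ℕ → G, FreeGroup.lift f w = 1) (f : ℕ → H) : FreeGroup.lift f w = 1 := by
  have : FreeGroup.lift f w = e (FreeGroup.lift (e.symm ∘ f) w) := by
    rw [← MulEquiv.coe_toMonoidHom, ← MonoidHom.comp_apply]
    congr 1
    exact FreeGroup.ext_hom _ _ fun i => by simp
  rw [this, h, map_one]

theorem bound {w : FreeGroup ℕ} (hw : w ≠ 1) :
    ∃ N : ℕ, ∀ (G : Type u) [Group G] [Finite G],
      (Cfsg.IsAlternating G ∨ Cfsg.IsPSL G ∨ Cfsg.IsPSp G ∨ Cfsg.IsPSU G ∨ Cfsg.IsPOmegaOdd G ∨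
          Cfsg.IsPOmegaPlus G ∨ Cfsg.IsPOmegaMinus G) →
      (∀ f : ℕ → G, FreeGroup.lift f w = 1) → Nat.card G ≤ N := by
  classical
  obtain ⟨d, -, hd⟩ := nc_alternating hw
  obtain ⟨N, hN⟩ := sl2_word hw
  refine ⟨max d.factorial ((N ^ 2 + 1) ^ ((2 * d + 3) * (2 * d + 3))), fun G _ _ hG hlaw => ?_⟩
  have hNB : N ≤ N ^ 2 + 1 := le_trans (by nlinarith) (Nat.le_succ _)
  rcases hG with ⟨n, -, ⟨e⟩⟩ | ⟨F, _, _, n, hn, -, ⟨e⟩⟩ | ⟨F, _, _, m, hm, -, ⟨e⟩⟩ |
    ⟨F, _, _, n, q, hF, hn, -, ⟨e⟩⟩ | ⟨F, _, _, m, hm, -, ⟨e⟩⟩ | ⟨F, _, _, m, hm, ⟨e⟩⟩ |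
    ⟨F, _, _, m, a, b, hm, -, ⟨e⟩⟩
  all_goals rw [Nat.card_congr e.toEquiv]
  · have hnd : n < d := by
      by_contra hc
      obtain ⟨f, hf⟩ := (hd n (by omega)).ne_one
      exact hf (law_push e hlaw f)
    refine le_trans (le_trans ?_ (Nat.factorial_le hnd.le)) (le_max_left _ _)
    calc Nat.card (alternatingGroup (Fin n)) ≤ Nat.card (Equiv.Perm (Fin n)) := Subgroup.card_le_card_group _
      _ = n.factorial := by rw [Nat.card_perm, Nat.card_fin]
  all_goals refine le_trans ?_ (le_max_right _ _)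
  · have hb : ¬ (d ≤ n ∨ N ≤ Fintype.card F) := fun hc => by
      obtain ⟨f, hf⟩ := (nc_SL hd (hN F) hn hc).quot_center
      exact hf (law_push e hlaw f)
    push Not at hb
    refine (card_quot_le _).trans (card_le_matrix (fun g : Matrix.SpecialLinearGroup (Fin n) F => (g : Matrix (Fin n) (Fin n) F))
      Subtype.val_injective (B := N ^ 2 + 1) (by omega) ?_)
    simp; omega
  · have hb : ¬ (d ≤ m ∨ N ≤ Fintype.card F) := fun hc => by
      obtain ⟨f, hf⟩ := ((nc_SL hd (hN F) hm hc).map (spHom F) (spHom_injective F)).quot_center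
      exact hf (law_push e hlaw f)
    push Not at hb
    refine (card_quot_le _).trans (card_le_matrix (fun g : Matrix.symplecticGroup (Fin m) F => (g : Matrix (Fin m ⊕ Fin m) (Fin m ⊕ Fin m) F))
      Subtype.val_injective (B := N ^ 2 + 1) (by omega) ?_)
    simp; omega
  · have hb : ¬ (d ≤ n ∨ N ≤ q) := fun hc => by
      obtain ⟨f, hf⟩ := (nc_SU hd (fun L _ _ => hN L) hF (by omega) hc).quot_center
      exact hf (law_push e hlaw f)
    push Not at hb
    have hq : Fintype.card F ≤ N ^ 2 + 1 := by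
      rw [hF]; exact le_trans (Nat.pow_le_pow_left hb.2.le 2) (Nat.le_succ _)
    refine (card_quot_le _).trans (card_le_matrix
      (fun g : Cfsg.SU n F q => ((g : Matrix.SpecialLinearGroup (Fin n) F) : Matrix (Fin n) (Fin n) F))
      (Subtype.val_injective.comp Subtype.val_injective) hq ?_)
    simp; omega
  · have hb : ¬ (d ≤ m ∨ N ≤ Fintype.card F) := fun hc => by
      obtain ⟨f, hf⟩ := (nc_omega_odd hm (nc_SL hd (hN F) (by omega) hc)).quot_center
      exact hf (law_push e hlaw f)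
    push Not at hb
    refine (card_quot_le _).trans (card_le_matrix
      (fun g : Cfsg.Omega F (Cfsg.quadFormOdd m F) => g.1.1.1)
      ((Units.val_injective.comp Subtype.val_injective).comp Subtype.val_injective) (B := N ^ 2 + 1) (by omega) ?_)
    simp; omega
  · have hb : ¬ (d ≤ m ∨ N ≤ Fintype.card F) := fun hc => by
      obtain ⟨f, hf⟩ := (nc_omega_plus (by omega) (nc_SL hd (hN F) (by omega) hc)).quot_center
      exact hf (law_push e hlaw f)
    push Not at hb
    refine (card_quot_le _).trans (card_le_matrix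
      (fun g : Cfsg.Omega F (Cfsg.quadFormPlus m F) => g.1.1.1)
      ((Units.val_injective.comp Subtype.val_injective).comp Subtype.val_injective) (B := N ^ 2 + 1) (by omega) ?_)
    simp; omega
  · have hb : ¬ (d ≤ m - 1 ∨ N ≤ Fintype.card F) := fun hc => by
      obtain ⟨f, hf⟩ := (nc_omega_minus (by omega) a b (nc_SL hd (hN F) (by omega) hc)).quot_center
      exact hf (law_push e hlaw f)
    push Not at hb
    refine (card_quot_le _).trans (card_le_matrix
      (fun g : Cfsg.Omega F (Cfsg.quadFormMinus (m - 1) F a b) => g.1.1.1)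
      ((Units.val_injective.comp Subtype.val_injective).comp Subtype.val_injective) (B := N ^ 2 + 1) (by omega) ?_)
    simp; omega

end Cfsg.Lib.Words
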