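/-
A nontrivial word is not a law in large Suzuki groups.
-/
import Mathlib
import Cfsg.Prelude.Def_Sz

set_option autoImplicit false

namespace Cfsg.Lib.Words.Sz

open Polynomial Matrix

variable {F : Type*} [Field F]

/-- lower then upper unipotent, acting on a vector -/
def fwd {R : Type*} [CommRing R] (a A B c1 c2 : R) (v : Fin 4 → R) : Fin 4 → R :=
  let y1 := a * v 0 + v 1
  let y2 := c1 * v 0 + A * v 1 + v 2
  let y3 := B * v 0 + c2 * v 1 + a * v 2 + v 3
  ![v 0 + a * y1 + c2 * y2 + B * y3, y1 + A * y2 + c1 * y3, y2 + a * y3, y3]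

/-- the state of a vector: the first coordinate leads -/
def St (θ j : ℕ) (v : Fin 4 → F[X]) : Prop :=
  v 0 ≠ 0 ∧ v 3 ≠ 0 ∧ (v 0).natDegree = (v 3).natDegree + j * (2 + θ) ∧
    (v 2).natDegree ≤ (v 3).natDegree + j ∧ (v 1).natDegree ≤ (v 3).natDegree + j * (1 + θ)

/-- reversing a vector -/
def rv {R : Type*} (v : Fin 4 → R) : Fin 4 → R := fun i => v i.rev

theorem deg_mul_le (p q : F[X]) {n k : ℕ} (hp : p.natDegree ≤ n) (hq : q.natDegree ≤ k) :
    (p * q).natDegree ≤ n + k := natDegree_mul_le.trans (Nat.add_le_add hp hq)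

theorem deg_add_le (p q : F[X]) {n : ℕ} (hp : p.natDegree ≤ n) (hq : q.natDegree ≤ n) :
    (p + q).natDegree ≤ n := natDegree_add_le_of_degree_le hp hq

theorem lead {p q : F[X]} {n : ℕ} (hp : p.natDegree = n) (hq : q.natDegree < n) :
    p + q ≠ 0 ∧ (p + q).natDegree = n := by
  have h : (p + q).natDegree = n := by rw [natDegree_add_eq_left_of_natDegree_lt (by omega), hp]
  exact ⟨fun e => by rw [e, natDegree_zero] at h; omega, h⟩

theorem step (θ k j : ℕ) (hθ : 1 ≤ θ) (hk : 1 ≤ k) (c1 c2 : F[X]) (hc1 : c1.natDegree ≤ k * (1 + θ))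
    (hc2 : c2.natDegree ≤ k * (1 + θ)) (v : Fin 4 → F[X]) (h : St θ j v ∨ (j ≠ k ∧ St θ j (rv v))) :
    St θ k (fwd (X ^ k) (X ^ (k * θ)) (X ^ (k * (2 + θ))) c1 c2 v) ∧
    ∀ N, (v 0).natDegree ≤ N → (v 3).natDegree ≤ N →
      (fwd (X ^ k) (X ^ (k * θ)) (X ^ (k * (2 + θ))) c1 c2 v 0).natDegree ≤ N + 2 * k * (2 + θ) := by
  set B : F[X] := X ^ (k * (2 + θ)) with hBdef
  have h0 : v 0 ≠ 0 := by
    rcases h with ⟨h, -⟩ | ⟨-, -, h, -⟩
    exacts [h, h]
  have h3 : v 3 ≠ 0 := by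
    rcases h with ⟨-, h, -⟩ | ⟨-, h, -⟩
    exacts [h, h]
  have hX : ∀ e, ((X : F[X]) ^ e).natDegree ≤ e := fun e => (natDegree_X_pow e).le
  have hk1 : k * (1 + θ) = k + k * θ := by ring
  have hk2 : k * (2 + θ) = 2 * k + k * θ := by ring
  have hj1 : j * (1 + θ) = j + j * θ := by ring
  have hj2 : j * (2 + θ) = 2 * j + j * θ := by ring
  set d0 := (v 0).natDegree with hd0
  set d1 := (v 1).natDegree with hd1
  set d2 := (v 2).natDegree with hd2
  set d3 := (v 3).natDegree with hd3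
  set y1 : F[X] := X ^ k * v 0 + v 1 with hy1
  set y2 : F[X] := c1 * v 0 + X ^ (k * θ) * v 1 + v 2 with hy2
  set y3 : F[X] := B * v 0 + c2 * v 1 + X ^ k * v 2 + v 3 with hy3
  have hB : (B * v 0).natDegree = k * (2 + θ) + d0 := by
    rw [natDegree_mul (pow_ne_zero _ X_ne_zero) h0, natDegree_X_pow]
  have hBle := hB.le
  have t1 := deg_mul_le c2 (v 1) hc2 le_rfl
  have t2 := deg_mul_le (X ^ k) (v 2) (hX k) le_rfl
  -- the last coordinate, and strict bounds for the middle ones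
  have key : y3 ≠ 0 ∧ k * (2 + θ) + d0 ≤ y3.natDegree ∧ d3 ≤ y3.natDegree ∧
      y3.natDegree ≤ max d0 d3 + k * (2 + θ) ∧
      (∀ n, n = k * (1 + θ) + d0 ∨ n = k * θ + d1 ∨ n = d2 → n < y3.natDegree + k) ∧
      k + d0 ≤ y3.natDegree + k ∧ d1 < y3.natDegree + k := by
    rcases h with ⟨-, -, e0, e2, e1⟩ | ⟨hjk, -, -, e0, e2, e1⟩
    · rw [← hd0, ← hd3] at e0
      rw [← hd2, ← hd3] at e2
      rw [← hd1, ← hd3] at e1
      have hs := lead (q := c2 * v 1 + X ^ k * v 2 + v 3) hB (Nat.lt_of_le_of_lt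
        (deg_add_le _ _ (deg_add_le _ _ (t1.trans (le_max_left _ (max (k + d2) d3)))
          (t2.trans ((le_max_left _ d3).trans (le_max_right _ _))))
          ((le_max_right (k + d2) d3).trans (le_max_right _ _))) (by omega))
      rw [show B * v 0 + (c2 * v 1 + X ^ k * v 2 + v 3) = y3 by rw [hy3]; ring] at hs
      refine ⟨hs.1, by omega, by omega, by omega, ?_, by omega, by omega⟩
      rintro n (rfl | rfl | rfl) <;> omega
    · have e0' : d3 = d0 + j * (2 + θ) := e0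
      have e2' : d1 ≤ d0 + j := e2
      have e1' : d2 ≤ d0 + j * (1 + θ) := e1
      have hd : y3 ≠ 0 ∧ y3.natDegree = d0 + max j k * (2 + θ) := by
        rcases lt_or_gt_of_ne hjk with hl | hl
        · have g1 : j * θ ≤ k * θ := Nat.mul_le_mul_right _ hl.le
          have hs := lead (q := c2 * v 1 + X ^ k * v 2 + v 3) hB (Nat.lt_of_le_of_lt
            (deg_add_le _ _ (deg_add_le _ _ (t1.trans (le_max_left _ (max (k + d2) d3)))
              (t2.trans ((le_max_left _ d3).trans (le_max_right _ _))))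
              ((le_max_right (k + d2) d3).trans (le_max_right _ _))) (by omega))
          rw [show B * v 0 + (c2 * v 1 + X ^ k * v 2 + v 3) = y3 by rw [hy3]; ring] at hs
          rw [max_eq_right hl.le]
          exact ⟨hs.1, by omega⟩
        · have g1 : k * θ ≤ j * θ := Nat.mul_le_mul_right _ hl.le
          have hs := lead (q := B * v 0 + c2 * v 1 + X ^ k * v 2) (hd3.symm) (Nat.lt_of_le_of_lt
            (deg_add_le _ _ (deg_add_le _ _ (hBle.trans (le_max_left _ (max (k * (1 + θ) + d1) (k + d2))))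
              (t1.trans ((le_max_left _ _).trans (le_max_right _ _))))
              (t2.trans ((le_max_right (k * (1 + θ) + d1) _).trans (le_max_right _ _)))) (by omega))
          rw [show v 3 + (B * v 0 + c2 * v 1 + X ^ k * v 2) = y3 by rw [hy3]; ring] at hs
          rw [max_eq_left hl.le]
          exact ⟨hs.1, by omega⟩
      obtain ⟨hne, hd⟩ := hd
      have g : j * θ ≤ max j k * θ ∧ k * θ ≤ max j k * θ :=
        ⟨Nat.mul_le_mul_right _ (le_max_left _ _), Nat.mul_le_mul_right _ (le_max_right _ _)⟩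
      have hm2 : max j k * (2 + θ) = 2 * max j k + max j k * θ := by ring
      refine ⟨hne, by omega, by omega, ?_, ?_, by omega, by omega⟩
      · rcases le_total j k with hl | hl
        · rw [hd, max_eq_right hl]; omega
        · rw [hd, max_eq_left hl]; omega
      rintro n (rfl | rfl | rfl) <;> omega
  obtain ⟨hy3ne, hge0, hge3, hle, hmid, hq0, hq1⟩ := key
  set Y := y3.natDegree with hY
  have b1 : y1.natDegree ≤ Y + k :=
    deg_add_le _ _ ((deg_mul_le (X ^ k) (v 0) (hX k) le_rfl).trans hq0) (le_trans le_rfl hq1.le)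
  have b2 : y2.natDegree < Y + k := by
    refine Nat.lt_of_le_of_lt (deg_add_le _ _ (deg_add_le _ _
      ((deg_mul_le c1 (v 0) hc1 le_rfl).trans (le_max_left _ (max (k * θ + d1) d2)))
      ((deg_mul_le (X ^ (k * θ)) (v 1) (hX _) le_rfl).trans ((le_max_left _ d2).trans (le_max_right _ _))))
      ((le_max_right (k * θ + d1) d2).trans (le_max_right _ _))) ?_
    exact max_lt (hmid _ (Or.inl rfl)) (max_lt (hmid _ (Or.inr (Or.inl rfl))) (hmid _ (Or.inr (Or.inr rfl))))
  have hz0 := lead (q := v 0 + X ^ k * y1 + c2 * y2)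
    (show (B * y3).natDegree = k * (2 + θ) + Y by
      rw [natDegree_mul (pow_ne_zero _ X_ne_zero) hy3ne, natDegree_X_pow])
    (Nat.lt_of_le_of_lt (deg_add_le _ _ (deg_add_le _ _
      (le_max_left d0 (max (k + y1.natDegree) (k * (1 + θ) + y2.natDegree)))
      ((deg_mul_le (X ^ k) y1 (hX k) le_rfl).trans ((le_max_left _ _).trans (le_max_right _ _))))
      ((deg_mul_le c2 y2 hc2 le_rfl).trans ((le_max_right (k + y1.natDegree) _).trans (le_max_right _ _)))) (by
        have hkθ : 0 < k * θ := Nat.mul_pos hk hθ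
        refine max_lt (by omega) (max_lt ?_ (by omega))
        omega))
  have e0 : fwd (X ^ k) (X ^ (k * θ)) B c1 c2 v 0 = B * y3 + (v 0 + X ^ k * y1 + c2 * y2) := by
    simp [fwd, hy1, hy2, hy3]; ring
  have e1 : fwd (X ^ k) (X ^ (k * θ)) B c1 c2 v 1 = y1 + X ^ (k * θ) * y2 + c1 * y3 := by
    simp [fwd, hy1, hy2, hy3]
  have e2 : fwd (X ^ k) (X ^ (k * θ)) B c1 c2 v 2 = y2 + X ^ k * y3 := by simp [fwd, hy2, hy3]
  have e3 : fwd (X ^ k) (X ^ (k * θ)) B c1 c2 v 3 = y3 := by simp [fwd, hy3]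
  refine ⟨⟨e0 ▸ hz0.1, e3 ▸ hy3ne, ?_, ?_, ?_⟩, fun N h1 h2 => ?_⟩
  · rw [e0, e3, hz0.2]; omega
  · rw [e2, e3]
    exact deg_add_le _ _ b2.le ((deg_mul_le (X ^ k) y3 (hX k) le_rfl).trans (by omega))
  · rw [e1, e3]
    refine deg_add_le _ _ (deg_add_le _ _ (b1.trans (by omega)) ?_) ((deg_mul_le c1 y3 hc1 le_rfl).trans (by omega))
    exact (deg_mul_le (X ^ (k * θ)) y2 (hX _) le_rfl).trans (by omega)
  · rw [e0, hz0.2]
    have : 2 * k * (2 + θ) = k * (2 + θ) + k * (2 + θ) := by ring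
    have : max d0 d3 ≤ N := max_le h1 h2
    omega

/-- a letter acting on polynomial vectors -/
noncomputable def act (θ : ℕ) (l : ℕ × Bool) (v : Fin 4 → F[X]) : Fin 4 → F[X] :=
  let k := l.1 + 1
  if l.2 then fwd (X ^ k) (X ^ (k * θ)) (X ^ (k * (2 + θ))) (X ^ (k * (1 + θ))) 0 v
  else rv (fwd (X ^ k) (X ^ (k * θ)) (X ^ (k * (2 + θ))) 0 (X ^ (k * (1 + θ))) (rv v))

/-- the image of the base vector under a word -/
noncomputable def orbit (θ : ℕ) (L : List (ℕ × Bool)) : Fin 4 → F[X] :=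
  L.foldr (act θ) fun _ => 1

/-- the degree bound of a word -/
def wBound (L : List (ℕ × Bool)) : ℕ := (L.map fun l => 2 * (l.1 + 1)).sum

theorem orbit_spec (θ : ℕ) (hθ : 1 ≤ θ) : ∀ L : List (ℕ × Bool), FreeGroup.IsReduced L → ∀ a M, L = a :: M →
    St θ (a.1 + 1) (if a.2 then orbit (F := F) θ L else rv (orbit (F := F) θ L)) ∧
      (orbit (F := F) θ L 0).natDegree ≤ wBound L * (2 + θ) ∧
      (orbit (F := F) θ L 3).natDegree ≤ wBound L * (2 + θ) := by
  intro L
  induction L with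
  | nil => intro _ a M e; exact absurd e.symm (List.cons_ne_nil _ _)
  | cons l T ih =>
    intro hred a M e
    obtain ⟨rfl, -⟩ := List.cons_eq_cons.1 e
    obtain ⟨i, b⟩ := l
    have hc1 : ((X : F[X]) ^ ((i + 1) * (1 + θ))).natDegree ≤ (i + 1) * (1 + θ) := (natDegree_X_pow _).le
    have h0 : (0 : F[X]).natDegree ≤ (i + 1) * (1 + θ) := by simp
    have main : ∀ j, (b = true → St θ j (orbit (F := F) θ T) ∨ (j ≠ i + 1 ∧ St θ j (rv (orbit (F := F) θ T)))) →
        (b = false → St θ j (rv (orbit (F := F) θ T)) ∨ (j ≠ i + 1 ∧ St θ j (orbit (F := F) θ T))) →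
        (orbit (F := F) θ T 0).natDegree ≤ wBound T * (2 + θ) →
        (orbit (F := F) θ T 3).natDegree ≤ wBound T * (2 + θ) →
        St θ (i + 1) (if b then orbit (F := F) θ ((i, b) :: T) else rv (orbit (F := F) θ ((i, b) :: T))) ∧
          (orbit (F := F) θ ((i, b) :: T) 0).natDegree ≤ wBound ((i, b) :: T) * (2 + θ) ∧
          (orbit (F := F) θ ((i, b) :: T) 3).natDegree ≤ wBound ((i, b) :: T) * (2 + θ) := by
      intro j ht hf d0 d3
      have hsum : wBound ((i, b) :: T) * (2 + θ) = wBound T * (2 + θ) + 2 * (i + 1) * (2 + θ) := by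
        simp only [wBound, List.map_cons, List.sum_cons]; ring
      rw [hsum]
      cases b
      · have hrr : rv (rv (orbit (F := F) θ T)) = orbit (F := F) θ T := funext fun x => by simp [rv]
        obtain ⟨s1, s2⟩ := step θ (i + 1) j hθ (by omega) 0 _ h0 hc1 (rv (orbit θ T)) (by rw [hrr]; exact hf rfl)
        have s3 := s2 _ d3 d0
        have eo : orbit (F := F) θ ((i, false) :: T) = rv (fwd (X ^ (i + 1)) (X ^ ((i + 1) * θ))
            (X ^ ((i + 1) * (2 + θ))) 0 (X ^ ((i + 1) * (1 + θ))) (rv (orbit θ T))) := by simp [orbit, act]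
        set V := fwd (X ^ (i + 1)) (X ^ ((i + 1) * θ)) (X ^ ((i + 1) * (2 + θ))) 0 (X ^ ((i + 1) * (1 + θ)))
          (rv (orbit (F := F) θ T))
        rw [eo]
        have s4 : (V 3).natDegree ≤ (V 0).natDegree := by have := s1.2.2.1; omega
        refine ⟨?_, ?_, ?_⟩
        · rw [if_neg (by simp), show rv (rv V) = V from funext fun x => by simp [rv]]; exact s1
        · show (V 3).natDegree ≤ _; omega
        · show (V 0).natDegree ≤ _; omega
      · obtain ⟨s1, s2⟩ := step θ (i + 1) j hθ (by omega) _ 0 hc1 h0 (orbit θ T) (ht rfl)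
        have s3 := s2 _ d0 d3
        have eo : orbit (F := F) θ ((i, true) :: T) = fwd (X ^ (i + 1)) (X ^ ((i + 1) * θ))
            (X ^ ((i + 1) * (2 + θ))) (X ^ ((i + 1) * (1 + θ))) 0 (orbit θ T) := by simp [orbit, act]
        set V := fwd (X ^ (i + 1)) (X ^ ((i + 1) * θ)) (X ^ ((i + 1) * (2 + θ))) (X ^ ((i + 1) * (1 + θ))) 0
          (orbit (F := F) θ T)
        rw [eo, if_pos rfl]
        have s4 : (V 3).natDegree ≤ (V 0).natDegree := by have := s1.2.2.1; omega
        exact ⟨s1, s3, s4.trans s3⟩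
    rcases T with _ | ⟨c, T⟩
    · refine main 0 (fun _ => Or.inl ?_) (fun _ => Or.inl ?_) (by simp [orbit]) (by simp [orbit]) <;>
        simp [St, orbit, rv]
    · rw [FreeGroup.isReduced_cons_cons] at hred
      obtain ⟨h1, h2, h3⟩ := ih hred.2 c T rfl
      obtain ⟨jc, bc⟩ := c
      have hr := hred.1
      simp only at hr h1
      refine main (jc + 1) ?_ ?_ h2 h3 <;> rintro rfl <;> cases bc <;> simp only [Bool.false_eq_true, if_false,
        if_true] at h1
      · exact Or.inr ⟨fun e => absurd (hr (by omega)) (by simp), h1⟩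
      · exact Or.inl h1
      · exact Or.inl h1
      · exact Or.inr ⟨fun e => absurd (hr (by omega)) (by simp), h1⟩

section Group

/-- the lower unipotent element -/
def lowM {R : Type*} [CommRing R] (a A : R) : Matrix (Fin 4) (Fin 4) R :=
  !![1, 0, 0, 0; a, 1, 0, 0; a * A, A, 1, 0; a ^ 2 * A, 0, a, 1]

/-- its inverse -/
def lowN {R : Type*} [CommRing R] (a A : R) : Matrix (Fin 4) (Fin 4) R :=
  !![1, 0, 0, 0; a, 1, 0, 0; 0, A, 1, 0; a ^ 2 * A, a * A, a, 1]

/-- the antidiagonal matrix -/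
def anti (R : Type*) [CommRing R] : Matrix (Fin 4) (Fin 4) R :=
  !![0, 0, 0, 1; 0, 0, 1, 0; 0, 1, 0, 0; 1, 0, 0, 0]

variable (F) [CharP F 2]

theorem low_mul (a A : F) : lowM a A * lowN a A = 1 ∧ lowN a A * lowM a A = 1 := by
  have h2 : (2 : F) = 0 := CharTwo.two_eq_zero
  constructor <;>
  · ext i j
    fin_cases i <;> fin_cases j <;> simp [lowM, lowN, Matrix.mul_apply, Fin.sum_univ_four]
    all_goals grind

/-- the lower unipotent element as a unit -/
def lowU (a A : F) : GL (Fin 4) F := ⟨lowM a A, lowN a A, (low_mul F a A).1, (low_mul F a A).2⟩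

/-- the antidiagonal matrix as a unit -/
def antiU : GL (Fin 4) F := ⟨anti F, anti F, by
    ext i j; fin_cases i <;> fin_cases j <;> simp [anti, Matrix.mul_apply, Fin.sum_univ_four], by
    ext i j; fin_cases i <;> fin_cases j <;> simp [anti, Matrix.mul_apply, Fin.sum_univ_four]⟩

theorem lowU_mem (e : ℕ) (he : ∀ x : F, (x ^ e) ^ e = x ^ 2) (he0 : e ≠ 0) (a : F) :
    lowU F a (a ^ e) ∈ Cfsg.Lie.Sz F e := by
  have h2 : (2 : F) = 0 := CharTwo.two_eq_zero
  refine Subgroup.subset_closure ⟨fun u v => ?_, ?_⟩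
  · simp [lowU, lowM, Cfsg.Lie.altForm4, Matrix.mulVec, dotProduct, Fin.sum_univ_four]
    grind
  · show Cfsg.Lie.star4 (lowM a (a ^ e)) = (lowM a (a ^ e)).map fun x => x ^ e
    ext i j
    have h := he a
    fin_cases i <;> fin_cases j <;>
      simp [lowM, Cfsg.Lie.star4, Cfsg.Lie.pairOf, mul_pow, zero_pow he0]
    all_goals (try rw [h])
    all_goals (try rw [← pow_mul, mul_comm 2, pow_mul])
    all_goals grind

theorem antiU_mem (e : ℕ) (he0 : e ≠ 0) : antiU F ∈ Cfsg.Lie.Sz F e := by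
  have h2 : (2 : F) = 0 := CharTwo.two_eq_zero
  refine Subgroup.subset_closure ⟨fun u v => ?_, ?_⟩
  · simp [antiU, anti, Cfsg.Lie.altForm4, Matrix.mulVec, dotProduct, Fin.sum_univ_four]
    ring
  · show Cfsg.Lie.star4 (anti F) = (anti F).map fun x => x ^ e
    ext i j
    fin_cases i <;> fin_cases j <;> simp [anti, Cfsg.Lie.star4, Cfsg.Lie.pairOf, zero_pow he0]
    all_goals grind

theorem anti_mulVec (v : Fin 4 → F) : anti F *ᵥ v = rv v := by
  ext i; fin_cases i <;> simp [anti, rv, Matrix.mulVec, dotProduct, Fin.sum_univ_four] <;> rfl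

theorem gen_mulVec (a A : F) (v : Fin 4 → F) :
    (anti F * lowM a A * anti F * lowM a A) *ᵥ v = fwd a A (a ^ 2 * A) (a * A) 0 v ∧
      (lowN a A * (anti F * lowN a A * anti F)) *ᵥ v = rv (fwd a A (a ^ 2 * A) 0 (a * A) (rv v)) := by
  constructor <;>
  · simp only [← Matrix.mulVec_mulVec, anti_mulVec]
    ext i
    fin_cases i <;> simp [lowM, lowN, rv, fwd, Matrix.mulVec, dotProduct, Fin.sum_univ_four] <;> ring

end Group

theorem main {w : FreeGroup ℕ} (hw : w ≠ 1) {F : Type*} [Field F] [Fintype F] {m : ℕ}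
    (hN : wBound w.toWord + 2 ≤ m) (hF : Fintype.card F = 2 ^ (2 * m + 1)) :
    ∃ f : ℕ → ↥(Cfsg.Lie.Sz F (2 ^ (m + 1))), FreeGroup.lift f w ≠ 1 := by
  haveI : CharP F 2 := by
    obtain ⟨p, hp⟩ := CharP.exists F
    obtain ⟨n, hpp, hn⟩ := FiniteField.card F p
    rw [hF] at hn
    have h1 : 2 ∣ p ^ (n : ℕ) := hn ▸ dvd_pow_self 2 (by omega)
    obtain rfl := (Nat.prime_dvd_prime_iff_eq Nat.prime_two hpp).1 (Nat.prime_two.dvd_of_dvd_pow h1)
    exact hp
  set θ := 2 ^ (m + 1) with hθ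
  have he : ∀ x : F, (x ^ θ) ^ θ = x ^ 2 := fun x => by
    rw [← pow_mul, hθ, ← pow_add, show m + 1 + (m + 1) = (2 * m + 1) + 1 by omega, pow_succ, ← hF, pow_mul,
      FiniteField.pow_card]
  have hθ0 : θ ≠ 0 := pow_ne_zero _ two_ne_zero
  obtain ⟨a, M, hL⟩ : ∃ a M, w.toWord = a :: M := by
    rcases h : w.toWord with _ | ⟨a, M⟩
    · exact absurd (FreeGroup.toWord_eq_nil_iff.1 h) hw
    · exact ⟨a, M, rfl⟩
  obtain ⟨hst, hd0, hd3⟩ := orbit_spec (F := F) θ (Nat.one_le_iff_ne_zero.2 hθ0) w.toWord FreeGroup.isReduced_toWord a M hL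
  set P := orbit (F := F) θ w.toWord
  have hne : P 0 - P 3 ≠ 0 := fun h => by
    rw [sub_eq_zero] at h
    have hd := hst.2.2.1
    have hpos : 0 < (a.1 + 1) * (2 + θ) := by positivity
    cases ha : a.2 <;> simp only [ha, Bool.false_eq_true, if_false, if_true, rv] at hd
    · change (P 3).natDegree = (P 0).natDegree + _ at hd
      rw [h] at hd; omega
    · rw [h] at hd; omega
  have hbound : (P 0 - P 3).natDegree < Fintype.card F := by
    refine Nat.lt_of_le_of_lt ((natDegree_sub_le _ _).trans (max_le hd0 hd3)) ?_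
    rw [hF, hθ]
    set S := wBound w.toWord
    have h1 : S < 2 ^ S := Nat.lt_two_pow_self
    have h2 : 2 + 2 ^ (m + 1) ≤ 2 ^ (m + 2) := by
      have : 2 ≤ 2 ^ (m + 1) := by
        calc 2 = 2 ^ 1 := by norm_num
          _ ≤ 2 ^ (m + 1) := Nat.pow_le_pow_right (by norm_num) (by omega)
      rw [pow_succ 2 (m + 1)]; omega
    calc S * (2 + 2 ^ (m + 1)) < 2 ^ S * 2 ^ (m + 2) :=
          Nat.mul_lt_mul_of_lt_of_le h1 h2 (by positivity)
      _ ≤ 2 ^ (2 * m + 1) := by rw [← pow_add]; exact Nat.pow_le_pow_right (by norm_num) (by omega)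
  obtain ⟨x, hx⟩ : ∃ x : F, (P 0 - P 3).eval x ≠ 0 := by
    by_contra hc
    push Not at hc
    exact hne (Polynomial.eq_zero_of_natDegree_lt_card_of_eval_eq_zero _ (ι := F) Function.injective_id
      (fun x => hc x) hbound)
  let L : ℕ → ↥(Cfsg.Lie.Sz F θ) := fun k => ⟨lowU F (x ^ k) ((x ^ k) ^ θ), lowU_mem F θ he hθ0 _⟩
  let W : ↥(Cfsg.Lie.Sz F θ) := ⟨antiU F, antiU_mem F θ hθ0⟩
  let f : ℕ → ↥(Cfsg.Lie.Sz F θ) := fun i => W * L (i + 1) * W * L (i + 1)
  let g : ℕ × Bool → ↥(Cfsg.Lie.Sz F θ) := fun l => cond l.2 (f l.1) (f l.1)⁻¹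
  have hval : ∀ L' : List (ℕ × Bool),
      ((((L'.map g).prod : ↥(Cfsg.Lie.Sz F θ)) : GL (Fin 4) F) : Matrix (Fin 4) (Fin 4) F) *ᵥ (fun _ => 1) =
        fun i => (orbit (F := F) θ L' i).eval x := by
    intro L'
    induction L' with
    | nil => ext i; simp [orbit]
    | cons l T ih =>
      rw [List.map_cons, List.prod_cons, Subgroup.coe_mul, Units.val_mul, ← Matrix.mulVec_mulVec, ih]
      obtain ⟨i, b⟩ := l
      have e1 : (x ^ (i + 1)) ^ θ = x ^ ((i + 1) * θ) := (pow_mul _ _ _).symm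
      have e2 : x ^ ((i + 1) * (2 + θ)) = (x ^ (i + 1)) ^ 2 * x ^ ((i + 1) * θ) := by
        rw [← pow_mul, ← pow_add, mul_add]
      have e3 : x ^ ((i + 1) * (1 + θ)) = x ^ (i + 1) * x ^ ((i + 1) * θ) := by rw [← pow_add]; ring_nf
      cases b
      · show (lowN (x ^ (i + 1)) ((x ^ (i + 1)) ^ θ) * (anti F * (lowN (x ^ (i + 1)) ((x ^ (i + 1)) ^ θ) * anti F)))
          *ᵥ _ = _
        rw [← mul_assoc (anti F), (gen_mulVec F _ _ _).2]
        ext c
        rw [show orbit (F := F) θ ((i, false) :: T) = act θ (i, false) (orbit θ T) from rfl]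
        fin_cases c <;> simp [act, rv, fwd, e1, e2, e3]
      · show (anti F * lowM (x ^ (i + 1)) ((x ^ (i + 1)) ^ θ) * anti F * lowM (x ^ (i + 1)) ((x ^ (i + 1)) ^ θ))
          *ᵥ _ = _
        rw [(gen_mulVec F _ _ _).1]
        ext c
        rw [show orbit (F := F) θ ((i, true) :: T) = act θ (i, true) (orbit θ T) from rfl]
        fin_cases c <;> simp [act, fwd, e1, e2, e3]
  refine ⟨f, fun h1 => hx ?_⟩
  have hm : FreeGroup.lift f w = (w.toWord.map g).prod := by
    conv_lhs => rw [← FreeGroup.mk_toWord (x := w)]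
    rw [FreeGroup.lift_mk]
  have h := hval w.toWord
  rw [← hm, h1] at h
  simp only [Subgroup.coe_one, Units.val_one, Matrix.one_mulVec] at h
  rw [Polynomial.eval_sub]
  show Polynomial.eval x (orbit θ w.toWord 0) - Polynomial.eval x (orbit θ w.toWord 3) = 0
  rw [← congrFun h 0, ← congrFun h 3, sub_self]

end Cfsg.Lib.Words.Sz
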